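import Cfsg.Agent.Lib.Helper35.Fi23Ord.X0.Chk12

namespace Cfsg.Agent.Lib.Helper35.Fi23Ord.X0

open Cfsg.Agent.Lib.Helper35

noncomputable def reach0 : ReachData Fi23a.pt 31670 [[0], [1], [2], [3], [4], [5], [6], [7], [8], [9]] 0 31671 where
  sl := sl0
  hsl := rfl
  ot := ot0
  big := 50
  hchk := q0u39
  hcnt := m0n1
theorem fix0 : ∀ s ∈ ([[0], [1], [2], [3], [4], [5], [6], [8], [9]] : List (List Nat)), pwalk Fi23a.pt s 0 = 0 := by decide +kernel
theorem yfix0 : ∀ i, i < 31671 → pwalk Fi23a.pt yl0.W i = i := fun i hi => fix_of_leaves' [yl0] 31671 y0u487 yl0.W (by simp) i hi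
theorem wfix0 : ∀ i, i < 31671 → pwalk Fi23a.pt wl0.W i = i := fun i hi => fix_of_leaves' wls 31671 wu2436 wl0.W (by simp [wls]) i hi
theorem wfix1 : ∀ i, i < 31671 → pwalk Fi23a.pt wl1.W i = i := fun i hi => fix_of_leaves' wls 31671 wu2436 wl1.W (by simp [wls]) i hi
theorem wfix2 : ∀ i, i < 31671 → pwalk Fi23a.pt wl2.W i = i := fun i hi => fix_of_leaves' wls 31671 wu2436 wl2.W (by simp [wls]) i hi
theorem wfix3 : ∀ i, i < 31671 → pwalk Fi23a.pt wl3.W i = i := fun i hi => fix_of_leaves' wls 31671 wu2436 wl3.W (by simp [wls]) i hi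
theorem wfix4 : ∀ i, i < 31671 → pwalk Fi23a.pt wl4.W i = i := fun i hi => fix_of_leaves' wls 31671 wu2436 wl4.W (by simp [wls]) i hi
theorem wfix5 : ∀ i, i < 31671 → pwalk Fi23a.pt wl5.W i = i := fun i hi => fix_of_leaves' wls 31671 wu2436 wl5.W (by simp [wls]) i hi
theorem wfix6 : ∀ i, i < 31671 → pwalk Fi23a.pt wl6.W i = i := fun i hi => fix_of_leaves' wls 31671 wu2436 wl6.W (by simp [wls]) i hi
theorem wfix7 : ∀ i, i < 31671 → pwalk Fi23a.pt wl7.W i = i := fun i hi => fix_of_leaves' wls 31671 wu2436 wl7.W (by simp [wls]) i hi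
theorem wfix8 : ∀ i, i < 31671 → pwalk Fi23a.pt wl8.W i = i := fun i hi => fix_of_leaves' wls 31671 wu2436 wl8.W (by simp [wls]) i hi
theorem wfix9 : ∀ i, i < 31671 → pwalk Fi23a.pt wl9.W i = i := fun i hi => fix_of_leaves' wls 31671 wu2436 wl9.W (by simp [wls]) i hi

end Cfsg.Agent.Lib.Helper35.Fi23Ord.X0
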